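import Mathlib
import Cfsg.Prelude.Def_Perm

/-!
# Orders of the one-dimensional affine and semi-affine groups of a finite field
-/

set_option autoImplicit false
set_option linter.all false

namespace Cfsg.Agent.SubConj

variable (p : ℕ) [Fact p.Prime] (n : ℕ)

local notation "F" => GaloisField p n

theorem card_ringAut (hn : n ≠ 0) : Nat.card (F ≃+* F) = n := by
  have e : (F ≃+* F) ≃ (F ≃ₐ[ZMod p] F) :=
    { toFun := fun φ => AlgEquiv.ofRingEquiv (f := φ) (fun x => by
        obtain ⟨m, rfl⟩ := ZMod.natCast_zmod_surjective (n := p) x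
        simp)
      invFun := fun φ => φ.toRingEquiv
      left_inv := fun φ => rfl
      right_inv := fun φ => AlgEquiv.ext fun x => rfl }
  rw [Nat.card_congr e, IsGalois.card_aut_eq_finrank, GaloisField.finrank p hn]

theorem card_units' (hn : n ≠ 0) : Nat.card Fˣ = p ^ n - 1 := by
  haveI : Fintype F := Fintype.ofFinite F
  rw [Nat.card_units, GaloisField.card p n hn]

theorem finite_ringAut : Finite (F ≃+* F) :=
  Finite.of_injective (fun φ => (φ : F → F)) DFunLike.coe_injective

theorem semiaffine_injective :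
    Function.Injective (fun w : Fˣ × F × (F ≃+* F) => fun x : F => (w.1 : F) * w.2.2 x + w.2.1) := by
  rintro ⟨a, b, φ⟩ ⟨a', b', φ'⟩ e
  have e0 := congrFun e 0
  simp only [map_zero, mul_zero, zero_add] at e0
  subst e0
  have e1 := congrFun e 1
  simp only [map_one, mul_one, add_left_inj] at e1
  obtain rfl : a = a' := Units.ext e1
  obtain rfl : φ = φ' := RingEquiv.ext fun x => by
    have := congrFun e x
    simpa using this
  rfl

theorem card_semiaffine (hn : n ≠ 0) :
    Nat.card (Cfsg.semiaffineGroup F) = p ^ n * ((p ^ n - 1) * n) := by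
  let g : Fˣ × F × (F ≃+* F) → Cfsg.semiaffineGroup F := fun w =>
    ⟨(w.2.2.toEquiv.trans (Equiv.mulLeft₀ (w.1 : F) w.1.ne_zero)).trans (Equiv.addRight w.2.1),
      w.1, w.2.1, w.2.2, fun x => rfl⟩
  have hg : Function.Bijective g := by
    refine ⟨fun w w' e => semiaffine_injective p n (funext fun x =>
      congrArg (fun σ : Cfsg.semiaffineGroup F => σ.1 x) e), ?_⟩
    rintro ⟨σ, a, b, φ, hσ⟩
    exact ⟨(a, b, φ), Subtype.ext (Equiv.ext fun x => (hσ x).symm)⟩
  rw [← Nat.card_congr (Equiv.ofBijective g hg), Nat.card_prod, Nat.card_prod, card_units' p n hn,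
    card_ringAut p n hn, GaloisField.card p n hn]
  ring

theorem card_affine (hn : n ≠ 0) : Nat.card (Cfsg.affineGroup F) = p ^ n * (p ^ n - 1) := by
  let g : Fˣ × F → Cfsg.affineGroup F := fun w =>
    ⟨(Equiv.mulLeft₀ (w.1 : F) w.1.ne_zero).trans (Equiv.addRight w.2), w.1, w.2, fun x => rfl⟩
  have hg : Function.Bijective g := by
    refine ⟨fun w w' e => ?_, ?_⟩
    · have := semiaffine_injective p n (a₁ := (w.1, w.2, RingEquiv.refl _))
        (a₂ := (w'.1, w'.2, RingEquiv.refl _)) (funext fun x =>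
          congrArg (fun σ : Cfsg.affineGroup F => σ.1 x) e)
      simp only [Prod.mk.injEq] at this
      exact Prod.ext this.1 this.2.1
    · rintro ⟨σ, a, b, hσ⟩
      exact ⟨(a, b), Subtype.ext (Equiv.ext fun x => (hσ x).symm)⟩
  rw [← Nat.card_congr (Equiv.ofBijective g hg), Nat.card_prod, card_units' p n hn,
    GaloisField.card p n hn]
  ring

/-- The semilinear maps `x ↦ a * φ x`. -/
theorem card_semilinear (hn : n ≠ 0) :
    Nat.card ↥(Cfsg.semiaffineGroup F ⊓ MulAction.stabilizer (Equiv.Perm F) (0 : F)) = (p ^ n - 1) * n := by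
  let g : Fˣ × (F ≃+* F) → ↥(Cfsg.semiaffineGroup F ⊓ MulAction.stabilizer (Equiv.Perm F) (0 : F)) := fun w =>
    ⟨(w.2.toEquiv.trans (Equiv.mulLeft₀ (w.1 : F) w.1.ne_zero)),
      ⟨w.1, 0, w.2, fun x => by simp⟩, by simp [MulAction.mem_stabilizer_iff]⟩
  have hg : Function.Bijective g := by
    refine ⟨fun w w' e => ?_, ?_⟩
    · have := semiaffine_injective p n (a₁ := (w.1, 0, w.2)) (a₂ := (w'.1, 0, w'.2)) (funext fun x =>
          congrArg (fun σ : ↥(Cfsg.semiaffineGroup F ⊓ MulAction.stabilizer (Equiv.Perm F) (0 : F)) =>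
            σ.1 x + 0) e)
      simp only [Prod.mk.injEq] at this
      exact Prod.ext this.1 this.2.2
    · rintro ⟨σ, ⟨a, b, φ, hσ⟩, h0⟩
      have hb : b = 0 := by
        have h1 : σ 0 = 0 := h0
        rw [hσ] at h1
        simpa using h1
      exact ⟨(a, φ), Subtype.ext (Equiv.ext fun x => by rw [hσ, hb, add_zero]; rfl)⟩
  rw [← Nat.card_congr (Equiv.ofBijective g hg), Nat.card_prod, card_units' p n hn,
    card_ringAut p n hn]

theorem affine_le_semiaffine : Cfsg.affineGroup F ≤ Cfsg.semiaffineGroup F :=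
  fun σ ⟨a, b, h⟩ => ⟨a, b, RingEquiv.refl _, h⟩

theorem affine_normal :
    ((Cfsg.affineGroup F).subgroupOf (Cfsg.semiaffineGroup F)).Normal := by
  refine ⟨fun τ hτ σ => ?_⟩
  obtain ⟨c, d, hc⟩ := hτ
  obtain ⟨a, b, φ, hσ⟩ := σ.2
  refine ⟨Units.map (φ : F →* F) c, -(φ (c : F)) * b + (a : F) * φ d + b, fun x => ?_⟩
  show (σ : Equiv.Perm F) ((τ : Equiv.Perm F) ((σ : Equiv.Perm F)⁻¹ x)) = _
  have hx : x = (a : F) * φ ((σ : Equiv.Perm F)⁻¹ x) + b := by
    rw [← hσ, Equiv.Perm.inv_def, Equiv.apply_symm_apply]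
  generalize (σ : Equiv.Perm F)⁻¹ x = y at hx ⊢
  rw [hσ, show (τ : Equiv.Perm F) y = (c : F) * y + d from hc y, hx, map_add, map_mul]
  simp only [Units.coe_map, MonoidHom.coe_coe]
  ring

end Cfsg.Agent.SubConj
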