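import Mathlib
import Cfsg.Agent.SubConj.Semiaffine
import Cfsg.Agent.Cores.Basic
import Cfsg.Agent.Lib.Hall
import Cfsg.Agent.Lib.MinimalNormal
import Cfsg.Agent.Recog.HuppertMain

/-!
# An elementary abelian normal Sylow subgroup with all subgroups of one order conjugate
-/

set_option autoImplicit false
set_option linter.all false

namespace Cfsg.Agent.SubConj

open Cfsg Cfsg.Agent
open scoped Pointwise

universe u

/-- Pairs generating a subgroup of order `p ^ 2`. -/
def Indep (X : Type u) [Group X] : Set (X × X) := {w | w.1 ≠ 1 ∧ w.2 ∉ Subgroup.zpowers w.1}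

theorem card_indep {X : Type u} [Group X] [Finite X] {p : ℕ} [Fact p.Prime] (hX : ∀ x : X, x ^ p = 1) :
    Nat.card (Indep X) = (Nat.card X - 1) * (Nat.card X - p) := by
  classical
  have := Fintype.ofFinite X
  let e : Indep X ≃ Σ u : {u : X // u ≠ 1}, {v : X // v ∉ Subgroup.zpowers u.1} :=
    { toFun := fun w => ⟨⟨w.1.1, w.2.1⟩, ⟨w.1.2, w.2.2⟩⟩
      invFun := fun w => ⟨(w.1.1, w.2.1), w.1.2, w.2.2⟩
      left_inv := fun w => rfl
      right_inv := fun w => rfl }
  have hc : ∀ u : {u : X // u ≠ 1}, Nat.card {v : X // v ∉ Subgroup.zpowers u.1} = Nat.card X - p := by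
    intro u
    rw [Nat.card_eq_fintype_card, Fintype.card_subtype_compl, ← Nat.card_eq_fintype_card,
      ← Nat.card_eq_fintype_card]
    congr 1
    show Nat.card (Subgroup.zpowers u.1) = p
    rw [Nat.card_zpowers]
    exact orderOf_eq_prime (hX _) u.2
  rw [Nat.card_congr e, Nat.card_sigma, Finset.sum_congr rfl fun u _ => hc u, Finset.sum_const,
    Finset.card_univ, smul_eq_mul, Fintype.card_subtype_compl, Fintype.card_subtype_eq,
    ← Nat.card_eq_fintype_card]

theorem card_subgroups_sq {X : Type u} [CommGroup X] [Finite X] {p : ℕ} [Fact p.Prime]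
    (hX : ∀ x : X, x ^ p = 1) :
    Nat.card {A : Subgroup X // Nat.card A = p ^ 2} * ((p ^ 2 - 1) * (p ^ 2 - p)) =
      (Nat.card X - 1) * (Nat.card X - p) := by
  classical
  have := Fintype.ofFinite X
  have hp : p.Prime := Fact.out
  let g : (Σ A : {A : Subgroup X // Nat.card A = p ^ 2}, Indep A.1) → Indep X := fun w =>
    ⟨((w.2.1.1 : X), (w.2.1.2 : X)), fun e => w.2.2.1 (Subtype.ext e), fun h => w.2.2.2 (by
      obtain ⟨k, hk⟩ := h
      exact ⟨k, Subtype.ext (by simpa using hk)⟩)⟩
  have key : ∀ w : Indep X, Nat.card (Subgroup.zpowers w.1.1 ⊔ Subgroup.zpowers w.1.2 : Subgroup X) = p ^ 2 := by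
    intro w
    have ho : ∀ x : X, x ≠ 1 → Nat.card (Subgroup.zpowers x) = p := fun x hx => by
      rw [Nat.card_zpowers]; exact orderOf_eq_prime (hX x) hx
    have hd := Cores.card_sup_dvd_mul (Subgroup.zpowers w.1.1) (Subgroup.zpowers w.1.2)
    rw [ho _ w.2.1, ho _ (fun e => w.2.2 (by rw [e]; exact one_mem _)), ← pow_two] at hd
    obtain ⟨k, hk, hk'⟩ := (Nat.dvd_prime_pow hp).mp hd
    have hlt : Nat.card (Subgroup.zpowers w.1.1) < Nat.card (Subgroup.zpowers w.1.1 ⊔ Subgroup.zpowers w.1.2 : Subgroup X) := by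
      refine lt_of_le_of_ne (Subgroup.card_le_of_le le_sup_left) fun e => w.2.2 ?_
      rw [Subgroup.eq_of_le_of_card_ge le_sup_left e.ge]
      exact le_sup_right (a := Subgroup.zpowers w.1.1) (Subgroup.mem_zpowers _)
    rw [ho _ w.2.1, hk'] at hlt
    obtain rfl : k = 2 := by
      rcases k with _ | _ | k
      · simp at hlt; have := hp.one_lt; omega
      · simp at hlt
      · omega
    exact hk'
  have hA : ∀ w : (Σ A : {A : Subgroup X // Nat.card A = p ^ 2}, Indep A.1),
      w.1.1 = Subgroup.zpowers (g w).1.1 ⊔ Subgroup.zpowers (g w).1.2 := fun w =>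
    (Subgroup.eq_of_le_of_card_ge (sup_le (Subgroup.zpowers_le.mpr w.2.1.1.2) (Subgroup.zpowers_le.mpr w.2.1.2.2))
      (le_of_eq (by rw [w.1.2]; exact (key (g w)).symm))).symm
  have hg : Function.Bijective g := by
    refine ⟨?_, fun w => ?_⟩
    · rintro ⟨⟨A, hcA⟩, ⟨⟨u, v⟩, huv⟩⟩ ⟨⟨A', hcA'⟩, ⟨⟨u', v'⟩, huv'⟩⟩ e
      obtain rfl : A = A' := (hA ⟨⟨A, hcA⟩, ⟨⟨u, v⟩, huv⟩⟩).trans
        ((congrArg (fun w : Indep X => Subgroup.zpowers w.1.1 ⊔ Subgroup.zpowers w.1.2) e).trans
          (hA ⟨⟨A', hcA'⟩, ⟨⟨u', v'⟩, huv'⟩⟩).symm)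
      have e' := congrArg Subtype.val e
      simp only [g, Prod.mk.injEq] at e'
      obtain rfl : u = u' := Subtype.ext e'.1
      obtain rfl : v = v' := Subtype.ext e'.2
      rfl
    · refine ⟨⟨⟨_, key w⟩, ⟨(⟨_, le_sup_left (b := Subgroup.zpowers w.1.2) (Subgroup.mem_zpowers w.1.1)⟩,
        ⟨_, le_sup_right (a := Subgroup.zpowers w.1.1) (Subgroup.mem_zpowers w.1.2)⟩),
        fun e => w.2.1 (congrArg Subtype.val e), fun h => w.2.2 ?_⟩⟩, rfl⟩
      obtain ⟨k, hk⟩ := h
      exact ⟨k, by simpa using congrArg Subtype.val hk⟩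
  rw [← card_indep hX, ← Nat.card_congr (Equiv.ofBijective g hg), Nat.card_sigma,
    Finset.sum_congr rfl (fun A _ => show Nat.card (Indep A.1) = (p ^ 2 - 1) * (p ^ 2 - p) by
      rw [card_indep (fun x => Subtype.ext (hX x.1)), A.2]),
    Finset.sum_const, Finset.card_univ, smul_eq_mul, Nat.card_eq_fintype_card]

/-- The homomorphism from linear maps to automorphisms of the underlying group. -/
def toMulAut {P : Type u} [CommGroup P] {p : ℕ} [Module (ZMod p) (Additive P)] :
    (Additive P ≃ₗ[ZMod p] Additive P) →* MulAut P where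
  toFun l := MulEquiv.toAdditive.symm l.toAddEquiv
  map_one' := rfl
  map_mul' _ _ := rfl

theorem card_fix_modEq {W : Type u} [Finite W] {H : Type u} [Group H] [MulAction H W] {r : ℕ}
    [Fact r.Prime] (hH : IsPGroup r H) :
    Nat.card (MulAction.fixedPoints H W) % r = Nat.card W % r :=
  (hH.card_modEq_card_fixedPoints W).symm

/-- No solvable linear group of a space with `81` points has order divisible by `65`. -/
theorem no_65 {V : Type u} [AddCommGroup V] [Finite V] (hV : Nat.card V = 81)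
    {L : Type u} [Group L] [Finite L] [Group.IsSolvable L] [DistribMulAction L V] [FaithfulSMul L V]
    (h5 : 5 ∣ Nat.card L) (h13 : 13 ∣ Nat.card L) : False := by
  classical
  haveI h5p : Fact (Nat.Prime 5) := ⟨by norm_num⟩
  haveI h13p : Fact (Nat.Prime 13) := ⟨by norm_num⟩
  let Fix : L → AddSubgroup V := fun g =>
    { carrier := {v | g • v = v}
      zero_mem' := smul_zero g
      add_mem' := fun {a b} (ha : g • a = a) (hb : g • b = b) => by
        show g • (a + b) = a + b
        rw [smul_add, ha, hb]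
      neg_mem' := fun {a} (ha : g • a = a) => by
        show g • -a = -a
        rw [smul_neg, ha] }
  have hpow : ∀ g : L, ∃ k ≤ 4, Nat.card (Fix g) = 3 ^ k := fun g => by
    have := (Fix g).card_addSubgroup_dvd_card
    rw [hV, show 81 = 3 ^ 4 from rfl] at this
    exact (Nat.dvd_prime_pow Nat.prime_three).mp this
  have hfull : ∀ g : L, Nat.card (Fix g) = 81 → g = 1 := fun g hg => by
    have htop : Fix g = ⊤ := AddSubgroup.eq_top_of_card_eq _ (hg.trans hV.symm)
    refine FaithfulSMul.eq_of_smul_eq_smul (α := V) fun v => ?_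
    rw [one_smul]
    exact (htop ▸ AddSubgroup.mem_top v : v ∈ Fix g)
  have hmod : ∀ (r : ℕ) [Fact r.Prime] (g : L), orderOf g = r → Nat.card (Fix g) % r = 81 % r := by
    intro r _ g hg
    have hH : IsPGroup r (Subgroup.zpowers g) := IsPGroup.of_card (n := 1) (by rw [Nat.card_zpowers, hg, pow_one])
    have := card_fix_modEq (W := V) hH
    rw [hV] at this
    rw [← this]
    congr 1
    refine Nat.card_congr (Equiv.subtypeEquivRight fun v => ?_)
    refine ⟨fun (hv : g • v = v) x => ?_, fun hv => hv ⟨g, Subgroup.mem_zpowers g⟩⟩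
    obtain ⟨k, hk⟩ := x.2
    have hmem : g ^ k ∈ MulAction.stabilizer L v := zpow_mem hv k
    show (x : L) • v = v
    rw [← hk]; exact hmem
  have hx5 : ∀ g : L, orderOf g = 5 → ∀ v : V, g • v = v → v = 0 := fun g hg v hv => by
    obtain ⟨k, hk, hkc⟩ := hpow g
    have hm := hmod 5 g hg
    have h1 : Nat.card (Fix g) = 1 := by
      rw [hkc] at hm ⊢
      interval_cases k <;> first | rfl | (exfalso; omega) | (exfalso; rw [hfull g (by rw [hkc]; rfl), orderOf_one] at hg; omega)
    haveI := (Nat.card_eq_one_iff_unique.mp h1).1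
    exact congrArg Subtype.val (Subsingleton.elim (⟨v, hv⟩ : Fix g) ⟨0, smul_zero g⟩)
  have hcomm : ∀ x y : L, orderOf x = 5 → orderOf y = 13 → (∀ v : V, y • v = v → y • (x • v) = x • v) → False := by
    intro x y hx hy hxy
    obtain ⟨k, hk, hkc⟩ := hpow y
    have hm := hmod 13 y hy
    have h3 : Nat.card (Fix y) = 3 := by
      rw [hkc] at hm ⊢
      interval_cases k <;> first | rfl | (exfalso; omega) | (exfalso; rw [hfull y (by rw [hkc]; rfl), orderOf_one] at hy; omega)
    -- `x` permutes the three fixed points of `y`, hence fixes them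
    let e : Equiv.Perm (Fix y) :=
      { toFun := fun v => ⟨x • v.1, hxy v.1 v.2⟩
        invFun := fun v => ⟨x⁻¹ • v.1, by
          have hpow' : ∀ i : ℕ, ∀ w : V, y • w = w → y • (x ^ i • w) = x ^ i • w := by
            intro i
            induction i with
            | zero => intro w hw; simpa using hw
            | succ i ih => intro w hw; rw [pow_succ', mul_smul]; exact hxy _ (ih w hw)
          have := hpow' 4 v.1 v.2
          rwa [show x ^ 4 = x⁻¹ from eq_inv_of_mul_eq_one_left (by rw [← pow_succ, show 4 + 1 = orderOf x by rw [hx], pow_orderOf_eq_one])] at this⟩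
        left_inv := fun v => Subtype.ext (inv_smul_smul x v.1)
        right_inv := fun v => Subtype.ext (smul_inv_smul x v.1) }
    haveI : Fintype (Fix y) := Fintype.ofFinite _
    have he5 : e ^ 5 = 1 := by
      refine Equiv.ext fun v => Subtype.ext ?_
      have : ∀ i : ℕ, ((e ^ i) v).1 = x ^ i • v.1 := by
        intro i
        induction i with
        | zero => simp
        | succ i ih => rw [pow_succ', Equiv.Perm.mul_apply, pow_succ', mul_smul, ← ih]; rfl
      rw [this, ← hx, pow_orderOf_eq_one, one_smul, Equiv.Perm.one_apply]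
    have he : e = 1 := by
      have hd : orderOf e ∣ 6 := by
        have := orderOf_dvd_card (x := e)
        rw [Fintype.card_perm, ← Nat.card_eq_fintype_card, h3] at this
        exact this
      exact orderOf_eq_one_iff.mp (Nat.eq_one_of_dvd_coprimes (by norm_num : Nat.Coprime 5 6)
        (orderOf_dvd_of_pow_eq_one he5) hd)
    haveI : Nontrivial (Fix y) := Finite.one_lt_card_iff_nontrivial.mp (by rw [h3]; norm_num)
    obtain ⟨v, hv⟩ := exists_ne (0 : Fix y)
    exact hv (Subtype.ext (hx5 x hx v.1 (congrArg (fun σ : Equiv.Perm (Fix y) => (σ v).1) he)))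
  obtain ⟨H, hH1, hH2⟩ := Hall.exists_isPiHall (G := L) ({5, 13} : Set ℕ)
  have hr : ∀ r : ℕ, r.Prime → r = 5 ∨ r = 13 → r ∣ Nat.card L → r ∣ Nat.card H := by
    intro r hr hr' hd
    rw [← H.card_mul_index] at hd
    exact (hr.dvd_mul.mp hd).resolve_right fun hi => hH2 r hr (by simpa using hr') hi
  obtain ⟨x₀, hx₀⟩ := exists_prime_orderOf_dvd_card' 5 (hr 5 h5p.out (Or.inl rfl) h5)
  obtain ⟨y₀, hy₀⟩ := exists_prime_orderOf_dvd_card' 13 (hr 13 h13p.out (Or.inr rfl) h13)
  have hcoe : ∀ g : H, orderOf (g : L) = orderOf g := fun g => Subgroup.orderOf_coe g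
  haveI : Nontrivial H := ⟨x₀, 1, fun e => by rw [e, orderOf_one] at hx₀; omega⟩
  obtain ⟨M, hMn, hMne, -, hMc, r, hrp, hMr, hMp⟩ := MinNormal.exists_elementary_abelian (G := H)
  haveI := Fact.mk hrp
  have hrd : r ∣ Nat.card H := by
    rcases hMp.card_eq_or_dvd with e | e
    · exact absurd (Subgroup.card_eq_one.mp e) hMne
    · exact e.trans (Subgroup.card_subgroup_dvd_card M)
  have hr' : r = 5 ∨ r = 13 := by simpa using hH1 r hrp hrd
  have hMord : ∀ m : M, m ≠ 1 → orderOf ((m : H) : L) = r := fun m hm => by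
    rw [hcoe]
    exact orderOf_eq_prime (hMr _ m.2) fun e => hm (Subtype.ext e)
  obtain ⟨m₀, hm₀⟩ := M.ne_bot_iff_exists_ne_one.mp hMne
  rcases hr' with rfl | rfl
  · -- `M` has order five, hence commutes with the element of order 13
    have hMcard : Nat.card M = 5 := by
      obtain ⟨v, hv⟩ : ∃ v : V, v ≠ 0 := by
        haveI : Nontrivial V := Finite.one_lt_card_iff_nontrivial.mp (by omega)
        exact exists_ne 0
      have hinj : Function.Injective (fun m : M => (((m : H) : L) • v)) := fun a b e => by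
        by_contra hab
        refine hv (hx5 ((((b⁻¹ * a : M) : H) : L)) (hMord _ fun e' => hab (inv_mul_eq_one.mp e').symm) v ?_)
        simp only [Subgroup.coe_mul, Subgroup.coe_inv, mul_smul, inv_smul_eq_iff]
        exact e
      have hle := Nat.card_le_card_of_injective _ hinj
      rw [hV] at hle
      obtain ⟨k, hk⟩ := hMp.exists_card_eq
      have hM1 : 1 < Nat.card M := (Subgroup.one_lt_card_iff_ne_bot M).mpr hMne
      rw [hk] at hle hM1 ⊢
      rcases k with _ | _ | k
      · simp at hM1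
      · norm_num
      · exfalso
        rcases k with _ | k
        · -- order 25 would need 25 ∣ 80
          let φ : M → {w : V // w ≠ 0} := fun m => ⟨((m : H) : L) • v, fun e => hv (smul_eq_zero_iff_eq _ |>.mp e)⟩
          let _ : MulAction M {w : V // w ≠ 0} :=
            { smul := fun m w => ⟨((m : H) : L) • w.1, fun e => w.2 (smul_eq_zero_iff_eq _ |>.mp e)⟩
              one_smul := fun w => Subtype.ext (one_smul L w.1)
              mul_smul := fun a b w => Subtype.ext (mul_smul ((a : H) : L) ((b : H) : L) w.1) }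
          have hdvd : Nat.card M ∣ Nat.card {w : V // w ≠ 0} := by
            have hfree : ∀ w : {w : V // w ≠ 0}, MulAction.stabilizer M w = ⊥ := fun w => by
              refine (Subgroup.eq_bot_iff_forall _).mpr fun m hm => ?_
              by_contra hm1
              exact w.2 (hx5 _ (hMord m hm1) w.1 (congrArg Subtype.val hm))
            rw [Nat.card_congr (MulAction.selfEquivSigmaOrbits M {w : V // w ≠ 0})]
            haveI := Fintype.ofFinite (Quotient (MulAction.orbitRel M {w : V // w ≠ 0}))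
            rw [Nat.card_sigma]
            refine Finset.dvd_sum fun ω _ => dvd_of_eq ?_
            rw [Nat.card_congr (MulAction.orbitEquivQuotientStabilizer M _)]
            show Nat.card M = (MulAction.stabilizer M _).index
            rw [hfree, Subgroup.index_bot]
          have hc80 : Nat.card {w : V // w ≠ 0} = 80 := by
            haveI := Fintype.ofFinite V
            rw [Nat.card_eq_fintype_card, Fintype.card_subtype_compl, Fintype.card_subtype_eq,
              ← Nat.card_eq_fintype_card, hV]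
          rw [hk, hc80] at hdvd
          norm_num at hdvd
        · have : 5 ^ 3 ≤ 5 ^ (k + 1 + 1 + 1) := Nat.pow_le_pow_right (by norm_num) (by omega)
          omega
    -- an element of order 13 centralises a group of order five
    have hc : ∀ m : M, (y₀ : H) * m * y₀⁻¹ = m := by
      let φ : H →* MulAut M := MulAut.conjNormal
      have h13' : IsPGroup 13 (Subgroup.zpowers y₀) := IsPGroup.of_card (n := 1) (by rw [Nat.card_zpowers, hy₀, pow_one])
      have hdiv : orderOf (φ y₀) ∣ 4 := by
        have h1 := orderOf_dvd_natCard (φ y₀)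
        haveI : IsCyclic M := isCyclic_of_prime_card hMcard
        rw [IsCyclic.card_mulAut, hMcard] at h1
        exact h1
      have h1 : orderOf (φ y₀) = 1 := Nat.eq_one_of_dvd_coprimes (by norm_num : Nat.Coprime 13 4)
        (hy₀ ▸ orderOf_map_dvd φ y₀) hdiv
      intro m
      have := congrArg Subtype.val (DFunLike.congr_fun (orderOf_eq_one_iff.mp h1) m)
      simpa [φ, MulAut.conjNormal_apply] using this
    refine hcomm ((m₀ : H) : L) (y₀ : L) (hMord m₀ hm₀) (by rw [hcoe, hy₀]) fun v hv => ?_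
    have e : (y₀ : L) * ((m₀ : H) : L) = ((m₀ : H) : L) * (y₀ : L) := by
      rw [← Subgroup.coe_mul, ← Subgroup.coe_mul, mul_inv_eq_iff_eq_mul.mp (hc m₀)]
    rw [← mul_smul, e, mul_smul, hv]
  · refine hcomm (x₀ : L) ((m₀ : H) : L) (by rw [hcoe, hx₀]) (hMord m₀ hm₀) fun v hv => ?_
    -- the fixed points of a cyclic normal subgroup are invariant
    have hMW : ∀ m : M, ((m : H) : L) • v = v := by
      obtain ⟨k, hk, hkc⟩ := hpow ((m₀ : H) : L)
      have hm0 := hmod 13 _ (hMord m₀ hm₀)
      have h3 : Nat.card (Fix ((m₀ : H) : L)) = 3 := by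
        rw [hkc] at hm0 ⊢
        interval_cases k <;> first | rfl | (exfalso; omega) | (exfalso; exact hm₀ (Subtype.ext (Subtype.ext (hfull _ (by rw [hkc]; rfl)))))
      intro m
      -- `m` permutes the three fixed points of `m₀`
      let e : Equiv.Perm (Fix ((m₀ : H) : L)) :=
        { toFun := fun w => ⟨((m : H) : L) • w.1, by
            show ((m₀ : H) : L) • (((m : H) : L) • w.1) = ((m : H) : L) • w.1
            rw [← mul_smul, ← Subgroup.coe_mul, ← Subgroup.coe_mul, isMulCommutative_iff.mp hMc m₀ m,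
              Subgroup.coe_mul, Subgroup.coe_mul, mul_smul, w.2]⟩
          invFun := fun w => ⟨(((m⁻¹ : M) : H) : L) • w.1, by
            show ((m₀ : H) : L) • ((((m⁻¹ : M) : H) : L) • w.1) = (((m⁻¹ : M) : H) : L) • w.1
            rw [← mul_smul, ← Subgroup.coe_mul, ← Subgroup.coe_mul, isMulCommutative_iff.mp hMc m₀ m⁻¹,
              Subgroup.coe_mul, Subgroup.coe_mul, mul_smul, w.2]⟩
          left_inv := fun w => Subtype.ext (by simp)
          right_inv := fun w => Subtype.ext (by simp) }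
      haveI : Fintype (Fix ((m₀ : H) : L)) := Fintype.ofFinite _
      have he13 : e ^ 13 = 1 := by
        refine Equiv.ext fun w => Subtype.ext ?_
        have : ∀ i : ℕ, ((e ^ i) w).1 = ((m : H) : L) ^ i • w.1 := by
          intro i
          induction i with
          | zero => simp
          | succ i ih => rw [pow_succ', Equiv.Perm.mul_apply, pow_succ', mul_smul, ← ih]; rfl
        rw [this, ← Subgroup.coe_pow, hMr _ m.2, Subgroup.coe_one, one_smul, Equiv.Perm.one_apply]
      have hd : orderOf e ∣ 6 := by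
        have := orderOf_dvd_card (x := e)
        rw [Fintype.card_perm, ← Nat.card_eq_fintype_card, h3] at this
        exact this
      have he : e = 1 := orderOf_eq_one_iff.mp (Nat.eq_one_of_dvd_coprimes (by norm_num : Nat.Coprime 13 6)
        (orderOf_dvd_of_pow_eq_one he13) hd)
      exact congrArg (fun σ : Equiv.Perm (Fix ((m₀ : H) : L)) => (σ ⟨v, hv⟩).1) he
    have hmem : x₀⁻¹ * (m₀ : H) * x₀ ∈ M := by
      have := hMn.conj_mem _ m₀.2 x₀⁻¹
      rwa [inv_inv] at this
    have e := hMW ⟨_, hmem⟩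
    simp only [Subgroup.coe_mul, Subgroup.coe_inv, mul_smul, inv_smul_eq_iff] at e
    exact e

theorem arith_bound {p n : ℕ} (hp : p.Prime) (hn : 3 ≤ n)
    (h : (p ^ (n - 1) - 1) ∣ n * (p ^ 2 - 1)) : n = 3 ∨ (n = 5 ∧ p = 2) := by
  have h2 := hp.two_le
  obtain ⟨m, rfl⟩ : ∃ m, n = m + 3 := ⟨n - 3, by omega⟩
  rw [show m + 3 - 1 = m + 2 from rfl] at h
  have hsq : 1 ≤ p ^ 2 := Nat.one_le_pow _ _ hp.pos
  rcases m with _ | _ | _ | m
  · exact Or.inl rfl
  · -- `n = 4`
    exfalso
    have e : p ^ 3 - 1 = (p - 1) * (p ^ 2 + p + 1) := by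
      obtain ⟨t, rfl⟩ : ∃ t, p = t + 1 := ⟨p - 1, by omega⟩
      simp only [Nat.add_sub_cancel]
      rw [Nat.sub_eq_iff_eq_add (Nat.one_le_pow _ _ (by omega))]; ring
    have e2 : p ^ 2 - 1 = (p - 1) * (p + 1) := by
      obtain ⟨t, rfl⟩ : ∃ t, p = t + 1 := ⟨p - 1, by omega⟩
      simp only [Nat.add_sub_cancel]
      rw [Nat.sub_eq_iff_eq_add hsq]; ring
    rw [show 0 + 1 + 2 = 3 from rfl, show 0 + 1 + 3 = 4 from rfl, e, e2,
      show 4 * ((p - 1) * (p + 1)) = (p - 1) * (4 * (p + 1)) by ring] at h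
    have h' := Nat.dvd_of_mul_dvd_mul_left (by omega) h
    have hc : Nat.Coprime (p ^ 2 + p + 1) (p + 1) := by
      rw [show p ^ 2 + p + 1 = 1 + p * (p + 1) by ring]
      exact (Nat.coprime_add_mul_right_left 1 (p + 1) p).mpr (Nat.coprime_one_left _)
    have := Nat.le_of_dvd (by norm_num) (hc.dvd_of_dvd_mul_right h')
    nlinarith
  · -- `n = 5`
    have e : p ^ 4 - 1 = (p ^ 2 - 1) * (p ^ 2 + 1) := by
      obtain ⟨t, ht⟩ : ∃ t, p ^ 2 = t + 1 := ⟨p ^ 2 - 1, by omega⟩
      rw [show p ^ 4 = (p ^ 2) ^ 2 by ring, ht, Nat.add_sub_cancel,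
        Nat.sub_eq_iff_eq_add (Nat.one_le_pow _ _ (by omega))]
      ring
    rw [show 0 + 1 + 1 + 2 = 4 from rfl, show 0 + 1 + 1 + 3 = 5 from rfl, e, mul_comm 5] at h
    have h' := Nat.le_of_dvd (by norm_num) (Nat.dvd_of_mul_dvd_mul_left (by nlinarith [Nat.sub_add_cancel hsq]) h)
    exact Or.inr ⟨rfl, by nlinarith⟩
  · exfalso
    have hpos : 0 < (m + 1 + 1 + 1 + 3) * (p ^ 2 - 1) :=
      Nat.mul_pos (by omega) (by nlinarith [Nat.sub_add_cancel hsq])
    have hle := Nat.le_of_dvd hpos h
    have hbig : ∀ k : ℕ, k + 7 ≤ p ^ (k + 3) := by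
      intro k
      induction k with
      | zero => have := Nat.pow_le_pow_left h2 3; norm_num at this ⊢; omega
      | succ k ih =>
        rw [show k + 1 + 3 = k + 3 + 1 by omega, pow_succ]
        nlinarith
    have e : p ^ (m + 1 + 1 + 1 + 2) = p ^ (m + 3) * p ^ 2 := by rw [← pow_add]
    have := hbig m
    obtain ⟨t, ht⟩ : ∃ t, p ^ 2 = t + 1 := ⟨p ^ 2 - 1, by omega⟩
    rw [e, ht, Nat.add_sub_cancel] at hle
    have : (m + 7) * (t + 1) ≤ p ^ (m + 3) * (t + 1) := Nat.mul_le_mul_right _ this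
    have h3 : (m + 1 + 1 + 1 + 3) * t = (m + 6) * t := rfl
    have h4 : 3 ≤ t := by nlinarith
    rw [h3] at hle
    have : p ^ (m + 3) * (t + 1) ≤ (m + 6) * t + 1 := by omega
    nlinarith

theorem main {N : Type u} [Group N] [Finite N] {p : ℕ} [Fact p.Prime] (P : Subgroup N) [P.Normal]
    (hPc : IsMulCommutative P) (hPe : ∀ x ∈ P, x ^ p = 1) (n : ℕ) (hn : 3 ≤ n)
    (hcard : Nat.card P = p ^ n) (hidx : ¬ p ∣ P.index)
    (htr : ∀ A B : Subgroup N, A ≤ P → B ≤ P → Nat.card A = Nat.card B →
      ∃ g : N, ∀ x, x ∈ A ↔ g * x * g⁻¹ ∈ B)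
    (hsolv : Group.IsSolvable (N ⧸ Cfsg.pPrimeCore p N)) :
    (n = 3 ∨ (n = 5 ∧ p = 2)) ∧ ∃ f : N ⧸ Cfsg.pPrimeCore p N →* ↥(Cfsg.semiaffineGroup (GaloisField p n)),
      Function.Injective f ∧
      (p = 2 → n = 3 → Function.Surjective f ∨ f.range = (Cfsg.affineGroup (GaloisField p n)).subgroupOf _) ∧
      (n = 5 → Function.Surjective f) := by
  classical
  have hp : p.Prime := Fact.out
  have hn0 : n ≠ 0 := by omega
  set K := Cfsg.pPrimeCore p N with hKdef
  haveI := hPc
  letI : CommGroup P := { (inferInstance : Group P) with mul_comm := fun a b => isMulCommutative_iff.mp hPc a b }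
  let V := Additive P
  have hpsmul : ∀ v : V, p • v = 0 := fun v => Subtype.ext (hPe _ (Additive.toMul v).2)
  letI : Module (ZMod p) V := AddCommGroup.zmodModule (G := V) (n := p) hpsmul
  haveI : Nontrivial V := by
    haveI : Nontrivial P := Finite.one_lt_card_iff_nontrivial.mp (by rw [hcard]; exact Nat.one_lt_pow hn0 hp.one_lt)
    exact inferInstanceAs (Nontrivial (Additive P))
  -- conjugation as linear maps
  let lin : MulAut P → (V ≃ₗ[ZMod p] V) := fun φ =>
    { toFun := fun v => Additive.ofMul (φ (Additive.toMul v))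
      map_add' := fun a b => congrArg Additive.ofMul (map_mul φ (Additive.toMul a) (Additive.toMul b))
      map_smul' := fun c x => ZMod.map_smul
        (AddMonoidHom.mk' (fun v : V => Additive.ofMul (φ (Additive.toMul v)))
          (fun a b => congrArg Additive.ofMul (map_mul φ (Additive.toMul a) (Additive.toMul b)))) c x
      invFun := fun v => Additive.ofMul (φ.symm (Additive.toMul v))
      left_inv := fun v => congrArg Additive.ofMul (φ.symm_apply_apply (Additive.toMul v))
      right_inv := fun v => congrArg Additive.ofMul (φ.apply_symm_apply (Additive.toMul v)) }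
  have hlin : ∀ φ ψ : MulAut P, lin (φ * ψ) = lin φ * lin ψ := by
    intro φ ψ
    refine LinearEquiv.ext fun v => ?_
    rfl
  let toLin : MulAut P →* (V ≃ₗ[ZMod p] V) := MonoidHom.mk' lin hlin
  have hKP : ∀ k ∈ K, ∀ x ∈ P, k * x = x * k := by
    have hd : Disjoint K P := by
      rw [disjoint_iff, ← Subgroup.card_eq_one]
      refine Nat.eq_one_of_dvd_coprimes ?_ (Subgroup.card_dvd_of_le inf_le_left) (Subgroup.card_dvd_of_le inf_le_right)
      rw [hcard]; exact (Cores.pPrimeCore_coprime).pow_right n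
    exact fun k hk x hx => Subgroup.commute_of_normal_of_disjoint K P inferInstance inferInstance hd k x hk hx
  let ρN : N →* (V ≃ₗ[ZMod p] V) := toLin.comp MulAut.conjNormal
  have hρK : K ≤ ρN.ker := fun k hk => by
    have : (MulAut.conjNormal k : MulAut P) = 1 := MulEquiv.ext fun x => Subtype.ext (by
      show k * (x : N) * k⁻¹ = x
      rw [hKP k hk x x.2, mul_inv_cancel_right])
    show toLin (MulAut.conjNormal k) = 1
    rw [this, map_one]
  let ρQ : N ⧸ K →* (V ≃ₗ[ZMod p] V) := QuotientGroup.lift K ρN hρK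
  let scal : (ZMod p)ˣ →* (V ≃ₗ[ZMod p] V) := DistribMulAction.toModuleAut (ZMod p) V
  have hcomm : ∀ (q : N ⧸ K) (c : (ZMod p)ˣ), Commute (ρQ q) (scal c) := fun q c =>
    LinearEquiv.ext fun v => by
      rw [LinearEquiv.mul_apply, LinearEquiv.mul_apply]
      exact (ρQ q).map_smul (c : ZMod p) v
  let Φ : (N ⧸ K) × (ZMod p)ˣ →* (V ≃ₗ[ZMod p] V) := ρQ.noncommCoprod scal hcomm
  let L := Φ.range
  haveI := hsolv
  haveI hLsolv : Group.IsSolvable L := solvable_of_surjective Φ.rangeRestrict_surjective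
  haveI : Finite (V ≃ₗ[ZMod p] V) := Finite.of_injective (fun l => (l : V → V)) DFunLike.coe_injective
  have hρL : ∀ g : N, ρN g ∈ L := fun g => ⟨(QuotientGroup.mk g, 1), by simp [Φ, ρQ]⟩
  have hscal : ∀ c, scal c ∈ L := fun c => ⟨(1, c), by simp [Φ]⟩
  -- transitivity on nonzero vectors
  have htrans : Recog.TransLin.IsTrans (L.subtype) := by
    intro v w hv hw
    have ho : ∀ u : V, u ≠ 0 → Nat.card (Subgroup.zpowers ((Additive.toMul u : P) : N)) = p := fun u hu => by
      rw [Nat.card_zpowers]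
      exact orderOf_eq_prime (hPe _ (Additive.toMul u).2) fun e => hu (Subtype.ext e)
    obtain ⟨g, hg⟩ := htr _ _ (Subgroup.zpowers_le.mpr (Additive.toMul v).2)
      (Subgroup.zpowers_le.mpr (Additive.toMul w).2) ((ho v hv).trans (ho w hw).symm)
    obtain ⟨k, hk⟩ := (hg _).mp (Subgroup.mem_zpowers ((Additive.toMul v : P) : N))
    simp only at hk
    have hgv : ρN g v = (k : ZMod p) • w := by
      rw [Int.cast_smul_eq_zsmul]
      exact Subtype.ext hk.symm
    have hk0 : (k : ZMod p) ≠ 0 := fun e => by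
      rw [e, zero_smul] at hgv
      exact hv ((ρN g).map_eq_zero_iff.mp hgv)
    refine ⟨⟨scal (Units.mk0 _ hk0)⁻¹ * ρN g, mul_mem (hscal _) (hρL g)⟩, ?_⟩
    show ((Units.mk0 _ hk0)⁻¹ : (ZMod p)ˣ) • ρN g v = w
    rw [hgv, Units.smul_def, smul_smul, Units.val_inv_eq_inv_val, Units.val_mk0, inv_mul_cancel₀ hk0, one_smul]
  -- the subgroups of order `p ^ 2`
  let S := {A : Subgroup P // Nat.card A = p ^ 2}
  have hS : Nat.card S * ((p ^ 2 - 1) * (p ^ 2 - p)) = (p ^ n - 1) * (p ^ n - p) := by
    rw [← hcard]; exact card_subgroups_sq (fun x => Subtype.ext (hPe x.1 x.2))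
  have hSne : Nonempty S := by
    by_contra h
    rw [not_nonempty_iff] at h
    rw [Nat.card_of_isEmpty, zero_mul] at hS
    have h1 : 1 < p ^ n := Nat.one_lt_pow hn0 hp.one_lt
    have h2 : p < p ^ n := lt_self_pow₀ hp.one_lt (by omega)
    rcases mul_eq_zero.mp hS.symm with e | e <;> omega
  obtain ⟨A₀⟩ := hSne
  have hmap : ∀ (φ : MulAut P) (A : S), Nat.card (A.1.map φ.toMonoidHom) = p ^ 2 := fun φ A => by
    rw [Subgroup.card_map_of_injective φ.injective, A.2]
  let actS : MulAction (MulAut P) S :=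
    { smul := fun φ A => ⟨A.1.map φ.toMonoidHom, hmap φ A⟩
      one_smul := fun A => Subtype.ext (Subgroup.map_id A.1)
      mul_smul := fun φ ψ A => Subtype.ext (Subgroup.map_map A.1 φ.toMonoidHom ψ.toMonoidHom).symm }
  letI actN : MulAction N S := MulAction.compHom S (MulAut.conjNormal : N →* MulAut P)
  have htrS : ∀ A B : S, ∃ g : N, g • A = B := by
    intro A B
    have hle : ∀ C : S, C.1.map P.subtype ≤ P := fun C => Subgroup.map_subtype_le _
    obtain ⟨g, hg⟩ := htr _ _ (hle A) (hle B) (by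
      rw [Subgroup.card_map_of_injective P.subtype_injective, Subgroup.card_map_of_injective P.subtype_injective,
        A.2, B.2])
    refine ⟨g, Subtype.ext (Subgroup.eq_of_le_of_card_ge ?_ (by rw [B.2, (g • A).2]))⟩
    rintro _ ⟨x, hx, rfl⟩
    obtain ⟨y, hy, hyx⟩ := (hg _).mp ⟨x, hx, rfl⟩
    have : (MulAut.conjNormal g : MulAut P) x = y := Subtype.ext hyx.symm
    show (MulAut.conjNormal g : MulAut P) x ∈ B.1
    rw [this]; exact hy
  haveI hpre : MulAction.IsPretransitive N S := ⟨htrS⟩
  have hstabN : P ⊔ K ≤ MulAction.stabilizer N A₀ := by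
    have key : ∀ x : N, (∀ y ∈ P, x * y = y * x) → x ∈ MulAction.stabilizer N A₀ := fun x hx => by
      rw [MulAction.mem_stabilizer_iff]
      have : (MulAut.conjNormal x : MulAut P) = 1 := MulEquiv.ext fun y => Subtype.ext (by
        show x * (y : N) * x⁻¹ = y
        rw [hx y y.2, mul_inv_cancel_right])
      show (MulAut.conjNormal x : MulAut P) • A₀ = A₀
      rw [this, one_smul]
    exact sup_le (fun x hx => key x fun y hy => congrArg Subtype.val (isMulCommutative_iff.mp hPc ⟨x, hx⟩ ⟨y, hy⟩))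
      (fun x hx => key x (hKP x hx))
  have hSN : Nat.card S = (MulAction.stabilizer N A₀).index :=
    (MulAction.index_stabilizer_of_transitive N A₀).symm
  have hSQ : Nat.card S ∣ Nat.card (N ⧸ K) := by
    rw [← Subgroup.index_eq_card, hSN]; exact Subgroup.index_dvd_of_le (le_sup_right.trans hstabN)
  have hpS : ¬ p ∣ Nat.card S := fun h => hidx (h.trans (hSN ▸ Subgroup.index_dvd_of_le (le_sup_left.trans hstabN)))
  have hpQ : p ^ n ∣ Nat.card (N ⧸ K) := by
    have h1 : p ^ n ∣ Nat.card N := hcard ▸ Subgroup.card_subgroup_dvd_card P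
    rw [Subgroup.card_eq_card_quotient_mul_card_subgroup K] at h1
    exact ((Cores.pPrimeCore_coprime (G := N) (p := p)).symm.pow_left n).dvd_of_dvd_mul_right h1
  -- the linear group acts on them as well, scalars trivially
  letI actL : MulAction L S := MulAction.compHom S (toMulAut.comp L.subtype)
  haveI : MulAction.IsPretransitive L S := ⟨fun A B => by
    obtain ⟨g, hg⟩ := htrS A B
    refine ⟨⟨ρN g, hρL g⟩, ?_⟩
    rw [← hg]; rfl⟩
  have hSL : Nat.card S * (p - 1) ∣ Nat.card L := by
    rw [← (MulAction.stabilizer L A₀).index_mul_card, MulAction.index_stabilizer_of_transitive]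
    refine mul_dvd_mul_left _ ?_
    let sc : (ZMod p)ˣ →* MulAction.stabilizer L A₀ :=
      MonoidHom.codRestrict ((scal.codRestrict L hscal)) _ (fun c => by
        rw [MulAction.mem_stabilizer_iff]
        refine Subtype.ext (Subgroup.eq_of_le_of_card_ge ?_ (le_of_eq (A₀.2.trans ((scal.codRestrict L hscal) c • A₀).2.symm)))
        rintro _ ⟨x, hx, rfl⟩
        show Additive.toMul ((c : ZMod p) • (Additive.ofMul x : V)) ∈ A₀.1
        obtain ⟨k, hk⟩ := ZMod.natCast_zmod_surjective (n := p) (c : ZMod p)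
        rw [← hk, Nat.cast_smul_eq_nsmul]
        exact pow_mem hx k)
    have hsc : Function.Injective sc := fun a b e => by
      obtain ⟨v, hv⟩ := exists_ne (0 : V)
      have e1 : (a : ZMod p) • v = (b : ZMod p) • v :=
        congrArg (fun s : MulAction.stabilizer L A₀ => ((s.1 : L) : V ≃ₗ[ZMod p] V) v) e
      exact Units.ext (smul_left_injective (ZMod p) hv e1)
    have := Subgroup.card_dvd_of_injective sc hsc
    rwa [Nat.card_eq_fintype_card (α := (ZMod p)ˣ), ZMod.card_units p] at this
  -- the semilinear structure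
  have hVcard : Nat.card V = p ^ n := hcard
  obtain ⟨E, hE⟩ : ∃ E : V ≃+ GaloisField p n,
      ∀ l : L, ∃ (a : GaloisField p n) (σ : GaloisField p n ≃+* GaloisField p n),
        ∀ v : V, E ((l : V ≃ₗ[ZMod p] V) v) = a * σ (E v) := by
    rcases Recog.TransLin.huppert hLsolv L.subtype_injective htrans with h | ⟨h81, -⟩ | ⟨-, h2, -⟩
    · obtain ⟨F, hF, hFt, e, he⟩ := h.semilinear htrans
      have hFc : Fintype.card F = p ^ n := by
        rw [← Nat.card_eq_fintype_card, ← Nat.card_congr e.toEquiv, hVcard]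
      haveI : Fintype (GaloisField p n) := Fintype.ofFinite _
      let ι : F ≃+* GaloisField p n := FiniteField.ringEquivOfCardEq (by
        rw [hFc, ← Nat.card_eq_fintype_card, GaloisField.card p n hn0])
      refine ⟨e.trans ι.toAddEquiv, fun l => ?_⟩
      obtain ⟨a, σ, hl⟩ := he l
      refine ⟨ι a, (ι.symm.trans σ).trans ι, fun v => ?_⟩
      show ι (e ((l : V ≃ₗ[ZMod p] V) v)) = ι a * ι (σ (ι.symm (ι (e v))))
      rw [RingEquiv.symm_apply_apply, ← map_mul]
      exact congrArg ι (hl v)
    · exfalso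
      rw [hVcard] at h81
      have hp3 : p = 3 := by
        have : p ∣ 3 ^ 4 := by rw [show (3 : ℕ) ^ 4 = p ^ n by rw [h81]; norm_num]; exact dvd_pow_self p hn0
        exact (Nat.prime_dvd_prime_iff_eq hp Nat.prime_three).mp (hp.dvd_of_dvd_pow this)
      subst hp3
      obtain rfl : n = 4 := Nat.pow_right_injective (le_refl 2 |>.trans (by norm_num)) (h81.trans (by norm_num))
      have h130 : Nat.card S = 130 := by norm_num at hS; omega
      letI : DistribMulAction L V :=
        { smul := fun l v => (l : V ≃ₗ[ZMod 3] V) v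
          one_smul := fun v => rfl
          mul_smul := fun a b v => rfl
          smul_zero := fun l => (l : V ≃ₗ[ZMod 3] V).map_zero
          smul_add := fun l a b => (l : V ≃ₗ[ZMod 3] V).map_add a b }
      haveI : FaithfulSMul L V := ⟨fun h => Subtype.ext (LinearEquiv.ext h)⟩
      have hd : 130 ∣ Nat.card L := h130 ▸ (dvd_mul_right _ _).trans hSL
      exact no_65 (L := L) (V := V) (by rw [hVcard, h81]) ((by norm_num : (5 : ℕ) ∣ 130).trans hd)
        ((by norm_num : (13 : ℕ) ∣ 130).trans hd)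
    · exfalso
      rw [hVcard] at h2
      have := Nat.pow_right_injective hp.two_le h2
      omega
  have hane : ∀ (l : L) (a : GaloisField p n) (σ : GaloisField p n ≃+* GaloisField p n),
      (∀ v : V, E ((l : V ≃ₗ[ZMod p] V) v) = a * σ (E v)) → a ≠ 0 := by
    intro l a σ h e
    obtain ⟨v, hv⟩ := exists_ne (0 : V)
    have := h v
    rw [e, zero_mul, AddEquiv.map_eq_zero_iff, LinearEquiv.map_eq_zero_iff] at this
    exact hv this
  -- the semilinear bound
  have hLn : Nat.card L ∣ (p ^ n - 1) * n := by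
    let θ : (V ≃ₗ[ZMod p] V) →* Equiv.Perm (GaloisField p n) :=
      { toFun := fun l => E.toEquiv.permCongr l.toEquiv
        map_one' := by ext x; simp
        map_mul' := fun a b => by ext x; simp }
    let ψ : L →* ↥(Cfsg.semiaffineGroup (GaloisField p n) ⊓
        MulAction.stabilizer (Equiv.Perm (GaloisField p n)) (0 : GaloisField p n)) :=
      (θ.comp L.subtype).codRestrict _ (fun l => by
        obtain ⟨a, σ, h⟩ := hE l
        refine ⟨⟨Units.mk0 a (hane l a σ h), 0, σ, fun x => ?_⟩, ?_⟩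
        · show E ((l : V ≃ₗ[ZMod p] V) (E.symm x)) = a * σ x + 0
          rw [h, AddEquiv.apply_symm_apply, add_zero]
        · show E ((l : V ≃ₗ[ZMod p] V) (E.symm 0)) = 0
          rw [map_zero, map_zero, map_zero])
    rw [← card_semilinear p n hn0]
    refine Subgroup.card_dvd_of_injective ψ fun a b e => Subtype.ext (LinearEquiv.ext fun v => ?_)
    have := congrArg (fun s => (s : Equiv.Perm (GaloisField p n)) (E v))
      (congrArg Subtype.val e)
    simpa [ψ, θ] using this
  -- arithmetic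
  have h2le : p ≤ p ^ 2 := Nat.le_self_pow two_ne_zero p
  have hdiv : (p ^ (n - 1) - 1) ∣ n * (p ^ 2 - 1) := by
    have h1 := Nat.mul_dvd_mul_right (hSL.trans hLn) ((p ^ 2 - 1) * p)
    have e2 : p ^ 2 - p = p * (p - 1) := by rw [Nat.mul_sub_one, pow_two]
    have e3 : p ^ n - p = p * (p ^ (n - 1) - 1) := by
      rw [Nat.mul_sub_one, ← pow_succ', show n - 1 + 1 = n by omega]
    rw [e2, e3] at hS
    have e4 : Nat.card S * (p - 1) * ((p ^ 2 - 1) * p) = (p ^ n - 1) * p * (p ^ (n - 1) - 1) := by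
      rw [mul_assoc (p ^ n - 1), ← hS]; ring
    rw [e4, show (p ^ n - 1) * n * ((p ^ 2 - 1) * p) = (p ^ n - 1) * p * (n * (p ^ 2 - 1)) by ring] at h1
    exact Nat.dvd_of_mul_dvd_mul_left
      (Nat.mul_pos (Nat.sub_pos_of_lt (Nat.one_lt_pow hn0 hp.one_lt)) hp.pos) h1
  have hcase := arith_bound hp hn hdiv
  -- the embedding
  obtain ⟨H₀, hH₀⟩ := Subgroup.exists_right_complement'_of_coprime (N := P)
    (by rw [hcard]; exact ((Nat.Prime.coprime_iff_not_dvd hp).mpr hidx).pow_left n)
  have hH₀i : H₀.index = Nat.card P := hH₀.index_eq_card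
  let j : P → N ⧸ H₀ := fun v => QuotientGroup.mk (v : N)
  have hj : Function.Bijective j := by
    rw [Nat.bijective_iff_injective_and_card]
    refine ⟨fun a b e => ?_, by rw [← hH₀i]; exact Subgroup.index_eq_card _⟩
    have h1 : (a : N)⁻¹ * b ∈ H₀ := QuotientGroup.eq.mp e
    have h2 : (a : N)⁻¹ * b ∈ P := mul_mem (inv_mem a.2) b.2
    have := Subgroup.mem_bot.mp (hH₀.disjoint.le_bot ⟨h2, h1⟩)
    exact Subtype.ext (inv_mul_eq_one.mp this)
  let ε : N ⧸ H₀ ≃ GaloisField p n :=
    ((Equiv.ofBijective j hj).symm.trans Additive.ofMul).trans E.toEquiv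
  let f0 : N →* Equiv.Perm (GaloisField p n) :=
    ε.permCongrHom.toMonoidHom.comp (MulAction.toPermHom N (N ⧸ H₀))
  have hdec : ∀ g : N, ∃ v ∈ P, ∃ h ∈ H₀, g = v * h := fun g => by
    obtain ⟨⟨v, h⟩, e⟩ := hH₀.2 g
    exact ⟨v, v.2, h, h.2, e.symm⟩
  have hf0 : ∀ (v : P) (h : N), h ∈ H₀ → ∀ w : V, f0 ((v : N) * h) (E w) = E (ρN h w) + E (Additive.ofMul v) := by
    intro v h hh w
    have hε : ∀ u : P, ε (j u) = E (Additive.ofMul u) := fun u => by
      show E (Additive.ofMul ((Equiv.ofBijective j hj).symm (j u))) = _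
      rw [Equiv.ofBijective_symm_apply_apply]
    have e1 : ε.symm (E w) = j (Additive.toMul w) := by
      rw [Equiv.symm_apply_eq, hε]; rfl
    show ε (((v : N) * h) • ε.symm (E w)) = _
    have e2 : (((v : N) * h) • (j (Additive.toMul w)) : N ⧸ H₀) = j (v * (MulAut.conjNormal h : MulAut P) (Additive.toMul w)) := by
      show (QuotientGroup.mk ((v : N) * h * (Additive.toMul w : P)) : N ⧸ H₀) = QuotientGroup.mk ((v : N) * (h * (Additive.toMul w : P) * h⁻¹))
      rw [QuotientGroup.eq]
      rw [show (((v : N) * h * (Additive.toMul w : P))⁻¹ * ((v : N) * (h * (Additive.toMul w : P) * h⁻¹))) = h⁻¹ by group]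
      exact inv_mem hh
    rw [e1, e2, hε, ofMul_mul, map_add, add_comm]
    rfl
  have hmemS : ∀ g, f0 g ∈ Cfsg.semiaffineGroup (GaloisField p n) := by
    intro g
    obtain ⟨v, hv, h, hh, rfl⟩ := hdec g
    obtain ⟨a, σ, hl⟩ := hE ⟨ρN h, hρL h⟩
    refine ⟨Units.mk0 a (hane _ a σ hl), E (Additive.ofMul ⟨v, hv⟩), σ, fun x => ?_⟩
    have := hf0 ⟨v, hv⟩ h hh (E.symm x)
    rw [AddEquiv.apply_symm_apply] at this
    rw [this, hl, AddEquiv.apply_symm_apply]
    rfl
  let f1 := f0.codRestrict _ hmemS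
  have hker : f1.ker = K := by
    have h0 : f1.ker = H₀.normalCore := by
      rw [MonoidHom.ker_codRestrict, Subgroup.normalCore_eq_ker]
      exact MonoidHom.ker_comp_of_injective _ _ ε.permCongrHom.injective
    rw [h0]
    have hHP : Nat.card H₀ = P.index := Nat.eq_of_mul_eq_mul_left (Nat.card_pos (α := P))
      (hH₀.card_mul_card.trans P.card_mul_index.symm)
    have hcop : (Nat.card H₀).Coprime p := hHP ▸ ((Nat.Prime.coprime_iff_not_dvd hp).mpr hidx).symm
    refine le_antisymm (Cores.le_pPrimeCore inferInstance (hcop.coprime_dvd_left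
      (Subgroup.card_dvd_of_le H₀.normalCore_le))) (Subgroup.normal_le_normalCore.mpr ?_)
    intro k hk
    obtain ⟨v, hv, h, hh, rfl⟩ := hdec k
    have h1 : v ∈ K ⊔ H₀ := by
      have := mul_mem ((le_sup_left : K ≤ K ⊔ H₀) hk) ((le_sup_right : H₀ ≤ K ⊔ H₀) (inv_mem hh))
      rwa [mul_inv_cancel_right] at this
    have h2 : (Nat.card ↥(K ⊔ H₀)).Coprime p := by
      refine (Nat.Coprime.mul_left (Cores.pPrimeCore_coprime (G := N)) hcop).coprime_dvd_left ?_
      rw [sup_comm, mul_comm]
      exact Cores.card_sup_dvd_mul H₀ K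
    have h3 : v = 1 := by
      rw [← orderOf_eq_one_iff]
      exact Nat.eq_one_of_dvd_coprimes h2 ((K ⊔ H₀).orderOf_dvd_natCard h1) (orderOf_dvd_of_pow_eq_one (hPe v hv))
    rw [h3, one_mul]; exact hh
  refine ⟨hcase, ?_⟩
  have hlift : ∀ x ∈ K, f1 x = 1 := fun x hx => MonoidHom.mem_ker.mp (hker ▸ hx)
  have hinj : Function.Injective (QuotientGroup.lift K f1 hlift) := by
    refine (injective_iff_map_eq_one _).mpr fun q => QuotientGroup.induction_on q fun x hx => ?_
    exact (QuotientGroup.eq_one_iff x).mpr (hker ▸ MonoidHom.mem_ker.mpr hx)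
  haveI : Finite (GaloisField p n) := inferInstance
  have hub : Nat.card (N ⧸ K) ∣ p ^ n * ((p ^ n - 1) * n) := by
    rw [← card_semiaffine p n hn0]
    exact Subgroup.card_dvd_of_injective _ hinj
  have hlb : p ^ n * Nat.card S ∣ Nat.card (N ⧸ K) :=
    Nat.Coprime.mul_dvd_of_dvd_of_dvd (((Nat.Prime.coprime_iff_not_dvd hp).mpr hpS).pow_left n) hpQ hSQ
  have hsurj : Nat.card (N ⧸ K) = p ^ n * ((p ^ n - 1) * n) → Function.Surjective (QuotientGroup.lift K f1 hlift) :=
    fun e => (Nat.bijective_iff_injective_and_card _).mpr ⟨hinj, by rw [e, card_semiaffine p n hn0]⟩ |>.2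
  refine ⟨QuotientGroup.lift K f1 hlift, hinj, ?_, ?_⟩
  · intro hp2 hn3
    subst hp2 hn3
    norm_num at hS hub hlb
    have h7 : Nat.card S = 7 := by omega
    rw [h7] at hlb
    obtain ⟨c, hc⟩ := hlb
    have hle := Nat.le_of_dvd (by norm_num) hub
    rw [hc] at hub hle
    have : c = 1 ∨ c = 3 := by
      have hc3 : c ≤ 3 := by omega
      interval_cases c <;> first | omega | (norm_num at hub) | (exfalso; exact Nat.card_pos.ne' hc)
    rcases this with rfl | rfl
    · right
      set Y := (QuotientGroup.lift K f1 hlift).range with hY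
      set A := (Cfsg.affineGroup (GaloisField 2 3)).subgroupOf (Cfsg.semiaffineGroup (GaloisField 2 3)) with hAdef
      haveI : A.Normal := affine_normal 2 3
      have hAc : Nat.card A = 56 := by
        rw [hAdef, Nat.card_congr (Subgroup.subgroupOfEquivOfLe (affine_le_semiaffine 2 3)).toEquiv,
          card_affine 2 3 (by norm_num)]
        norm_num
      have hAi : A.index = 3 := by
        have := A.card_mul_index
        rw [hAc, card_semiaffine 2 3 (by norm_num)] at this
        norm_num at this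
        omega
      have hYc : Nat.card Y = 56 := by
        rw [hY, ← Nat.card_congr (MonoidHom.ofInjective hinj).toEquiv, hc]
      refine Subgroup.eq_of_le_of_card_ge (fun y hy => ?_) (by rw [hAc, hYc])
      rw [← QuotientGroup.eq_one_iff, ← orderOf_eq_one_iff]
      refine Nat.eq_one_of_dvd_coprimes (by norm_num : Nat.Coprime 56 3) ?_ ?_
      · exact (orderOf_map_dvd (QuotientGroup.mk' A) y).trans (hYc ▸ Y.orderOf_dvd_natCard hy)
      · have h3 := orderOf_dvd_natCard (y : ↥(Cfsg.semiaffineGroup (GaloisField 2 3)) ⧸ A)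
        rwa [← Subgroup.index_eq_card, hAi] at h3
    · exact Or.inl (hsurj (by rw [hc]; norm_num))
  · intro hn5
    obtain ⟨rfl, rfl⟩ : n = 5 ∧ p = 2 := hcase.resolve_left (by omega)
    norm_num at hS hlb
    have h155 : Nat.card S = 155 := by omega
    rw [h155] at hlb
    exact hsurj (Nat.dvd_antisymm hub (by norm_num; exact hlb))

end Cfsg.Agent.SubConj
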